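import Cfsg.Agent.Brauer.RootBlockCount
import Cfsg.Agent.Brauer.Covering
import Cfsg.Agent.CharInd.Ito
import Cfsg.Agent.Char.Linear
import Cfsg.Agent.S0971

/-!
# The canonical character below a block with normal defect group
-/

set_option linter.style.haveILetI false

namespace Cfsg.Agent.Brauer

open Cfsg
open Cfsg.Agent.Block
open scoped ComplexConjugate

universe u

variable {G : Type u} [Group G] [Fintype G]

section Stabilizer

variable (N : Subgroup G) [hN : N.Normal]

/-- The stabilizer of a function on a normal subgroup. -/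
def conjStab (θ : N → ℂ) : Subgroup G where
  carrier := {x | CharInd.conjChar N x θ = θ}
  one_mem' := CharInd.conjChar_one N θ
  mul_mem' := fun {a b} (ha : _ = θ) (hb : _ = θ) => by
    change CharInd.conjChar N (a * b) θ = θ
    rw [CharInd.conjChar_mul, ha, hb]
  inv_mem' := fun {a} (ha : _ = θ) => by
    change CharInd.conjChar N a⁻¹ θ = θ
    conv_lhs => rw [← ha]
    rw [← CharInd.conjChar_mul, mul_inv_cancel, CharInd.conjChar_one]

open scoped Classical in
theorem card_conjClass_mul_stab (θ : N → ℂ) :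
    (CharInd.conjClass N θ).card * Nat.card (conjStab N θ) = Nat.card G := by
  have hm : ∀ ψ ∈ CharInd.conjClass N θ,
      (Finset.univ.filter fun x : G => CharInd.conjChar N x θ = ψ).card
        = Nat.card (conjStab N θ) := by
    intro ψ hψ
    obtain ⟨y, rfl⟩ := (CharInd.mem_conjClass N).1 hψ
    rw [← Nat.card_eq_finsetCard]
    refine Nat.card_congr ⟨fun x => ⟨x.1 * y⁻¹, ?_⟩, fun x => ⟨x.1 * y, ?_⟩, fun x => by simp,
      fun x => by simp⟩
    · change CharInd.conjChar N (x.1 * y⁻¹) θ = θ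
      rw [CharInd.conjChar_mul, (Finset.mem_filter.1 x.2).2, ← CharInd.conjChar_mul,
        mul_inv_cancel, CharInd.conjChar_one]
    · rw [Finset.mem_filter, CharInd.conjChar_mul, (x.2 : CharInd.conjChar N x.1 θ = θ)]
      exact ⟨Finset.mem_univ _, rfl⟩
  rw [← Nat.nsmul_eq_mul, ← Finset.sum_const, ← Finset.sum_congr rfl hm,
    ← Finset.card_eq_sum_card_fiberwise (fun x _ => (CharInd.mem_conjClass N).2 ⟨x, rfl⟩),
    Finset.card_univ, Nat.card_eq_fintype_card]

end Stabilizer

variable {p : ℕ} [Fact p.Prime] {M : Ideal AlgInt} [M.IsPrime]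

open scoped Classical in
/-- Below a block with normal defect group `P` lies a block of `P C(P)` with defect group `P`,
whose canonical character has `p'`-index stabilizer over `P C(P)`. -/
theorem exists_canonical (hM : IsPModular p M) {B : Set (IrrCharacter G)} (hB : IsPBlock M B)
    (P : Subgroup G) [P.Normal] (hP : IsDefectGroup p M B P)
    (L : Subgroup G) [L.Normal] [Fintype L] (hL : L = P ⊔ Subgroup.centralizer (P : Set G)) :
    ∃ b : Set (IrrCharacter L), RootData M p (P.subgroupOf L) b ∧ IsInducedBlock M L b B ∧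
      ∃ θ ∈ b, (∀ x ∈ P.subgroupOf L, (θ : L → ℂ) x = (θ : L → ℂ) 1) ∧
        ((CharInd.conjClass L (θ : L → ℂ)).card).factorization p = L.index.factorization p := by
  have hPL : P ≤ L := hL ▸ le_sup_left
  have hCL : Subgroup.centralizer (P : Set G) ≤ L := hL ▸ le_sup_right
  have hLN : L ≤ Subgroup.normalizer (P : Set G) := by
    rw [Subgroup.normalizer_eq_top]; exact le_top
  obtain ⟨b, hb⟩ := exists_isInducedBlock_of_subConj hM hPL hCL hLN hB hP (subConj_of_le le_rfl)
  obtain ⟨D, hD⟩ := exists_isDefectGroup (p := p) (M := M) hb.1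
  rw [defectGroup_root_eq hM hPL hLN hb hP hD] at hD
  have hGL : P.subgroupOf L ⊔ Subgroup.centralizer ((P.subgroupOf L : Subgroup L) : Set L) = ⊤ := by
    refine eq_top_iff.2 fun x _ => ?_
    haveI : (P.subgroupOf L).Normal := normal_subgroupOf_of_le_normalizer hLN
    have hx : (x : G) ∈ ((P ⊔ Subgroup.centralizer (P : Set G) : Subgroup G) : Set G) :=
      (hL ▸ x.2 : (x : G) ∈ P ⊔ Subgroup.centralizer (P : Set G))
    rw [Subgroup.normal_mul] at hx
    obtain ⟨u, hu, c, hc, huc⟩ := hx
    rw [show x = (⟨u, hPL hu⟩ : L) * ⟨c, hCL hc⟩ from Subtype.ext huc.symm]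
    exact Subgroup.mul_mem_sup hu ((centralizer_subgroupOf_iff hPL _).2 hc)
  have R : RootData M p (P.subgroupOf L) b := ⟨hM, hGL, hb.1, hD⟩
  obtain ⟨θ, hθ, hθP⟩ := R.exists_trivialOn
  refine ⟨b, R, hb, θ, hθ, hθP, ?_⟩
  haveI := Fintype.ofFinite P
  haveI := Fintype.ofFinite (G ⧸ P)
  set orb := (CharInd.conjClass L (θ : L → ℂ)).card
  obtain ⟨d, hd0, hd⟩ := Char.irr_one_pos θ.2
  have hdv : d.factorization p = (P.subgroupOf L).index.factorization p := by
    rw [← R.factorization_degree hθ hθP, Char.charDegree_of_eq hd]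
  choose m hm using fun χ : IrrCharacter G =>
    Char.isCharacter_classInner_nat (CharInd.isCharacter_res L (Char.isCharacter_of_irr χ.2)) θ
  have hv : P.index.factorization p
      = L.index.factorization p + (P.subgroupOf L).index.factorization p := by
    rw [← Subgroup.relIndex_mul_index hPL, Subgroup.relIndex,
      Nat.factorization_mul Subgroup.index_ne_zero_of_finite
      Subgroup.index_ne_zero_of_finite, Finsupp.add_apply, add_comm]
  have hdeg : ∀ χ : IrrCharacter G, m χ ≠ 0 →
      (χ : G → ℂ) 1 = ((m χ * orb * d : ℕ) : ℂ) ∧ (∀ x ∈ P, (χ : G → ℂ) x = (χ : G → ℂ) 1) := by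
    intro χ hχ
    have h := CharInd.clifford L χ.2 θ.2 (by rw [hm χ]; exact Nat.cast_ne_zero.2 hχ)
    rw [hm χ] at h
    have hval : ∀ x : G, ∀ hx : x ∈ P, (χ : G → ℂ) x = ((m χ * orb * d : ℕ) : ℂ) := by
      intro x hx
      have h1 := congrFun h ⟨x, hPL hx⟩
      simp only [Pi.smul_apply, Finset.sum_apply, smul_eq_mul] at h1
      rw [h1, Finset.sum_congr rfl (g := fun _ => (d : ℂ)), Finset.sum_const, nsmul_eq_mul]
      · push_cast; ring
      · intro ψ hψ
        obtain ⟨y, rfl⟩ := (CharInd.mem_conjClass L).1 hψ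
        rw [CharInd.conjChar_apply, hθP, hd]
        exact (inferInstance : P.Normal).conj_mem x hx y
    refine ⟨?_, fun x hx => by rw [hval x hx, hval 1 P.one_mem]⟩
    exact hval 1 P.one_mem
  have hdegv : ∀ χ ∈ B, m χ ≠ 0 → (m χ).factorization p + orb.factorization p
      = L.index.factorization p := by
    intro χ hχ hmχ
    obtain ⟨h1, hker⟩ := hdeg χ hmχ
    obtain ⟨-, hT⟩ := quotient_members_defectZero hM hB P hP
    have e : (Char.irrEquivQuotient P ((Char.irrEquivQuotient P).symm ⟨χ, hker⟩) : IrrCharacter G)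
        = χ := by simp
    have h2 := hT ((Char.irrEquivQuotient P).symm ⟨χ, hker⟩) (by rw [e]; exact hχ)
    have h3 : charDegree (((Char.irrEquivQuotient P).symm ⟨χ, hker⟩ : IrrCharacter (G ⧸ P)) :
        G ⧸ P → ℂ) = m χ * orb * d := by
      refine Char.charDegree_of_eq ?_
      rw [← h1]
      conv_rhs => rw [← e, Char.irrEquivQuotient_apply, QuotientGroup.mk_one]
    have horb : orb ≠ 0 := Finset.card_ne_zero.2 ⟨_, (CharInd.mem_conjClass L).2
      ⟨1, (CharInd.conjChar_one L _).symm⟩⟩
    rw [h3, Nat.factorization_mul (Nat.mul_ne_zero hmχ horb) hd0.ne',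
      Nat.factorization_mul hmχ horb, Finsupp.add_apply, Finsupp.add_apply, hdv,
      ← Subgroup.index_eq_card, hv] at h2
    omega
  -- the idempotent seen from `θ`
  obtain ⟨χ₀, hχ₀⟩ := pBlock_nonempty hB
  have hunit := omega_restr_sub_mem_of_induced L hb hθ hχ₀ (idemS_isCentralElt (M := M) B)
  rw [omega_idemS hB, if_pos hχ₀] at hunit
  have hom : omega (θ : L → ℂ) (toC M (restr L (idemS M B)))
      = ∑ χ : IrrCharacter G with χ ∈ B,
          ((m χ * (m χ * orb) : ℕ) : ℂ) / ((L.index : ℕ) : ℂ) := by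
    rw [omega_eq_sum, Finset.sum_congr rfl (g := fun x : L =>
      blockCoeff B (x : G) * (θ : L → ℂ) x) (fun x _ => by
        rw [mapR_restr, coeff_restr, toC_idemS hB, coeff_blockIdem])]
    simp only [blockCoeff_eq_sum, Finset.mul_sum, Finset.sum_mul]
    rw [Finset.sum_comm, Finset.sum_div]
    refine Finset.sum_congr rfl fun χ _ => ?_
    have hsum : ∑ x : L, conj ((χ : G → ℂ) (x : G)) * (θ : L → ℂ) x
        = (Nat.card L : ℂ) * (m χ : ℂ) := by
      have h := Char.sum_mul_conj_eq_card_mul_classInner (θ : L → ℂ) (fun x : L => (χ : G → ℂ) x)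
      rw [← Char.classInner_conj, hm χ, map_natCast] at h
      rw [← h]
      exact Finset.sum_congr rfl fun x _ => mul_comm _ _
    rw [Finset.sum_congr rfl (g := fun x : L => (Nat.card G : ℂ)⁻¹ * (χ : G → ℂ) 1 *
      (conj ((χ : G → ℂ) (x : G)) * (θ : L → ℂ) x)) (fun x _ => by ring), ← Finset.mul_sum, hsum,
      hd, ← Subgroup.card_mul_index L]
    by_cases hmχ : m χ = 0
    · simp [hmχ]
    · rw [(hdeg χ hmχ).1]
      push_cast
      have hd' : (d : ℂ) ≠ 0 := Nat.cast_ne_zero.2 hd0.ne'
      have hLc : (Nat.card L : ℂ) ≠ 0 := Nat.cast_ne_zero.2 Nat.card_pos.ne'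
      have hi : (L.index : ℂ) ≠ 0 := Nat.cast_ne_zero.2 Subgroup.index_ne_zero_of_finite
      field_simp
  by_contra hne
  apply not_memLocalIdeal_one (M := M)
  have hsub : MemLocalIdeal M (omega (θ : L → ℂ) (toC M (restr L (idemS M B)))) := by
    rw [hom]
    refine memLocalIdeal_sum _ _ fun χ hχ => ?_
    have hχB : χ ∈ B := (Finset.mem_filter.1 hχ).2
    by_cases hmχ : m χ = 0
    · simp [hmχ, memLocalIdeal_zero]
    · have horb : orb ≠ 0 := Finset.card_ne_zero.2 ⟨_, (CharInd.mem_conjClass L).2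
        ⟨1, (CharInd.conjChar_one L _).symm⟩⟩
      refine memLocalIdeal_natCast_div hM (Nat.mul_ne_zero hmχ (Nat.mul_ne_zero hmχ horb))
        Subgroup.index_ne_zero_of_finite ?_
      rw [Nat.factorization_mul hmχ (Nat.mul_ne_zero hmχ horb), Nat.factorization_mul hmχ horb,
        Finsupp.add_apply, Finsupp.add_apply]
      have := hdegv χ hχB hmχ
      omega
  simpa using memLocalIdeal_sub hsub hunit

end Cfsg.Agent.Brauer
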