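import Cfsg.Prelude.Def_Blocks
import Mathlib.GroupTheory.Transfer
import Mathlib.GroupTheory.SpecificGroups.Cyclic
import Mathlib.Data.ZMod.Basic
import Mathlib.GroupTheory.GroupAction.Quotient
import Mathlib.Data.Fintype.Perm

/-!
# Sylow 2-subgroups which are homocyclic of rank two
-/

namespace Cfsg.Agent.Brauer

/-- An automorphism of odd order of an abelian 2-group fixing every involution is trivial. -/
theorem aut_eq_self_of_fix_involutions {A : Type*} [CommGroup A] {m : ℕ}
    (hA : ∀ x : A, x ^ 2 ^ m = 1) (α : A →* A) {r : ℕ} (hr : Odd r)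
    (hαr : ∀ x, (α^[r]) x = x) (hfix : ∀ x : A, x ^ 2 = 1 → α x = x) : ∀ x, α x = x := by
  suffices ∀ j, ∀ x : A, x ^ 2 ^ j = 1 → α x = x from fun x => this m x (hA x)
  intro j
  induction j with
  | zero => intro x hx; simp at hx; simp [hx]
  | succ j ih =>
    intro x hx
    have h2 : α (x ^ 2) = x ^ 2 := ih _ (by rw [← pow_mul, ← pow_succ']; exact hx)
    set c := x⁻¹ * α x with hc
    have hc2 : c ^ 2 = 1 := by
      rw [hc, mul_pow, inv_pow, ← map_pow, h2, inv_mul_cancel]
    have hit : ∀ k, (α^[k]) x = x * c ^ k := by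
      intro k
      induction k with
      | zero => simp
      | succ k ihk =>
        rw [Function.iterate_succ_apply', ihk, map_mul, map_pow, hfix c hc2, pow_succ', hc]
        simp [mul_assoc]
    have h1 : c ^ r = 1 := mul_eq_left.mp ((hit r).symm.trans (hαr x))
    obtain ⟨k, rfl⟩ := hr
    rw [pow_succ, pow_mul, hc2, one_pow, one_mul] at h1
    rw [hc] at h1
    exact (inv_mul_eq_one.mp h1).symm

theorem zmod_two_torsion (m : ℕ) (x : ZMod (2 ^ (m + 1))) (hx : x + x = 0) :
    x = 0 ∨ x = (2 ^ m : ℕ) := by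
  haveI : NeZero (2 ^ (m + 1)) := ⟨by positivity⟩
  have h : ((x.val + x.val : ℕ) : ZMod (2 ^ (m + 1))) = 0 := by
    push_cast; simp only [ZMod.natCast_zmod_val]; exact hx
  rw [ZMod.natCast_eq_zero_iff] at h
  obtain ⟨c, hc⟩ := h
  have hlt := ZMod.val_lt x
  have : c ≤ 1 := by
    by_contra hcon
    have : 2 ^ (m + 1) * 2 ≤ 2 ^ (m + 1) * c := Nat.mul_le_mul_left _ (by omega)
    omega
  rw [← ZMod.natCast_zmod_val x]
  interval_cases c
  · left; have : x.val = 0 := by omega
    simp [this]
  · right; have : x.val = 2 ^ m := by have := pow_succ 2 m; omega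
    rw [this]

variable {G : Type*} [Group G] [Finite G] (P : Sylow 2 G) {m : ℕ} (hm : 1 ≤ m)
  (e : (P : Subgroup G) ≃* Multiplicative (ZMod (2 ^ m) × ZMod (2 ^ m)))

/-- The involutions of `P`. -/
abbrev InvSet : Type _ := {z : G // z ∈ (P : Subgroup G) ∧ z ^ 2 = 1 ∧ z ≠ 1}

include hm e

theorem card_invSet_le : Nat.card (InvSet P) ≤ 3 := by
  classical
  obtain ⟨k, rfl⟩ : ∃ k, m = k + 1 := ⟨m - 1, by omega⟩
  let h : ZMod (2 ^ (k + 1)) := (2 ^ k : ℕ)
  let S : Finset (ZMod (2 ^ (k + 1)) × ZMod (2 ^ (k + 1))) := {(0, h), (h, 0), (h, h)}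
  have key : ∀ z : InvSet P, (e ⟨z.1, z.2.1⟩).toAdd ∈ S := by
    intro z
    set w := e ⟨z.1, z.2.1⟩ with hw
    have h2 : w ^ 2 = 1 := by
      rw [hw, ← map_pow, map_eq_one_iff e e.injective]; exact Subtype.ext z.2.2.1
    have hne : w ≠ 1 := by
      rw [hw, Ne, map_eq_one_iff e e.injective]; exact fun h => z.2.2.2 (congrArg Subtype.val h)
    have hadd : w.toAdd + w.toAdd = 0 := by
      have := congrArg Multiplicative.toAdd h2
      rwa [toAdd_pow, toAdd_one, two_nsmul] at this
    have hne' : w.toAdd ≠ 0 := fun h => hne (Multiplicative.toAdd.injective h)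
    rcases zmod_two_torsion k w.toAdd.1 (congrArg Prod.fst hadd) with a | a <;>
      rcases zmod_two_torsion k w.toAdd.2 (congrArg Prod.snd hadd) with b | b
    · exact absurd (Prod.ext a b) hne'
    all_goals simp [S, h, Prod.ext_iff, a, b]
  let f : InvSet P → {s // s ∈ S} := fun z => ⟨_, key z⟩
  have hf : Function.Injective f := by
    intro a b hab
    have := Multiplicative.toAdd.injective (congrArg Subtype.val hab)
    exact Subtype.ext (congrArg Subtype.val (e.injective this) :)
  refine (Nat.card_le_card_of_injective f hf).trans ?_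
  rw [Nat.card_eq_finsetCard]
  exact Finset.card_le_three

theorem pow_two_pow_eq_one {x : G} (hx : x ∈ (P : Subgroup G)) : x ^ 2 ^ m = 1 := by
  have h : (e ⟨x, hx⟩) ^ 2 ^ m = 1 := by
    apply Multiplicative.toAdd.injective
    simp only [toAdd_pow, toAdd_one]
    ext <;> simp only [Prod.smul_fst, Prod.smul_snd, Prod.fst_zero, Prod.snd_zero] <;>
      rw [nsmul_eq_mul] <;> exact mul_eq_zero_of_left (ZMod.natCast_self _) _
  rw [← map_pow, map_eq_one_iff e e.injective] at h
  exact congrArg Subtype.val h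

theorem sylow_comm {x y : G} (hx : x ∈ (P : Subgroup G)) (hy : y ∈ (P : Subgroup G)) :
    x * y = y * x :=
  congrArg Subtype.val (e.injective (by rw [map_mul, map_mul, mul_comm]) :
    (⟨x, hx⟩ * ⟨y, hy⟩ : (P : Subgroup G)) = ⟨y, hy⟩ * ⟨x, hx⟩)

theorem centralizer_relIndex_odd :
    Odd ((Subgroup.centralizer (P : Set G)).relIndex (Subgroup.normalizer (P : Set G))) := by
  have hPC : (P : Subgroup G) ≤ Subgroup.centralizer (P : Set G) := fun x hx => by
    rw [Subgroup.mem_centralizer_iff]; exact fun y hy => sylow_comm P hm e hy hx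
  rw [Nat.odd_iff, ← Nat.two_dvd_ne_zero]
  intro h
  exact P.not_dvd_index (h.trans ((Subgroup.relIndex_dvd_of_le_left _ hPC).trans
    (Dvd.intro _ (Subgroup.relIndex_mul_index (Subgroup.le_normalizer)))))

/-- The permutation of the involutions induced by an element of the normalizer. -/
theorem relIndex_dvd_three :
    (Subgroup.centralizer (P : Set G)).relIndex (Subgroup.normalizer (P : Set G)) ∣ 3 ∧
    ∀ n ∈ Subgroup.normalizer (P : Set G), n ∉ Subgroup.centralizer (P : Set G) →
      ∀ z : InvSet P, n * z.1 * n⁻¹ ≠ z.1 := by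
  classical
  have hconj : ∀ n ∈ Subgroup.normalizer (P : Set G), ∀ z : InvSet P,
      n * z.1 * n⁻¹ ∈ (P : Subgroup G) ∧ (n * z.1 * n⁻¹) ^ 2 = 1 ∧ n * z.1 * n⁻¹ ≠ 1 := by
    intro n hn z
    refine ⟨(Subgroup.mem_normalizer_iff.mp hn _).mp z.2.1, ?_, fun h => z.2.2.2 ?_⟩
    · rw [conj_pow, z.2.2.1]; simp
    · exact conj_eq_one_iff.mp h
  let act : MulAction (Subgroup.normalizer (P : Set G)) (InvSet P) :=
    { smul := fun n z => ⟨(n : G) * z.1 * (n : G)⁻¹, hconj n n.2 z⟩
      one_smul := fun z => Subtype.ext (by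
        change ((1 : Subgroup.normalizer (P : Set G)) : G) * z.1 *
          ((1 : Subgroup.normalizer (P : Set G)) : G)⁻¹ = z.1
        simp)
      mul_smul := fun a b z => Subtype.ext (by
        change ((a * b : Subgroup.normalizer (P : Set G)) : G) * z.1 *
            ((a * b : Subgroup.normalizer (P : Set G)) : G)⁻¹
          = (a : G) * ((b : G) * z.1 * (b : G)⁻¹) * (a : G)⁻¹
        simp [mul_assoc]) }
  let φ := @MulAction.toPermHom _ (InvSet P) _ act
  have hφapp : ∀ (n : Subgroup.normalizer (P : Set G)) (z : InvSet P), ((φ n) z).1 = (n : G) * z.1 * (n : G)⁻¹ := by intro n z; rfl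
  have hC : ∀ n : Subgroup.normalizer (P : Set G), φ n = 1 ↔ (n : G) ∈ Subgroup.centralizer (P : Set G) := by
    intro n
    constructor
    · intro h1
      have hfix : ∀ z ∈ (P : Subgroup G), z ^ 2 = 1 → (n : G) * z * (n : G)⁻¹ = z := by
        intro z hz hz2
        by_cases h0 : z = 1
        · simp [h0]
        · exact (hφapp n ⟨z, hz, hz2, h0⟩).symm.trans (by rw [h1]; rfl)
      let r := (Subgroup.centralizer (P : Set G)).relIndex (Subgroup.normalizer (P : Set G))
      haveI : ((Subgroup.centralizer (P : Set G)).subgroupOf (Subgroup.normalizer (P : Set G))).Normal :=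
        Subgroup.Normal.mk fun c hc a => by
          rw [Subgroup.mem_subgroupOf, Subgroup.mem_centralizer_iff] at hc ⊢
          intro y hy
          have hy' : (a : G)⁻¹ * y * a ∈ (P : Subgroup G) := by
            simpa using (Subgroup.mem_normalizer_iff.mp (inv_mem a.2) _).mp hy
          simp only [Subgroup.coe_mul, Subgroup.coe_inv]
          calc y * ((a : G) * c * (a : G)⁻¹)
              = (a : G) * (((a : G)⁻¹ * y * a) * c) * (a : G)⁻¹ := by group
            _ = (a : G) * ((c : G) * ((a : G)⁻¹ * y * a)) * (a : G)⁻¹ := by rw [hc _ hy']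
            _ = (a : G) * c * (a : G)⁻¹ * y := by group
      have hpow : n ^ r ∈ (Subgroup.centralizer (P : Set G)).subgroupOf (Subgroup.normalizer (P : Set G)) :=
        Subgroup.pow_index_mem _ n
      letI : CommGroup (P : Subgroup G) :=
        { (inferInstance : Group (P : Subgroup G)) with
          mul_comm := fun a b => Subtype.ext (sylow_comm P hm e a.2 b.2) }
      let α : (P : Subgroup G) →* (P : Subgroup G) :=
        { toFun := fun x => ⟨(n : G) * x * (n : G)⁻¹, (Subgroup.mem_normalizer_iff.mp n.2 _).mp x.2⟩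
          map_one' := Subtype.ext (by simp)
          map_mul' := fun a b => Subtype.ext (by simp [mul_assoc]) }
      have hit : ∀ k, ∀ x : (P : Subgroup G),
          ((α^[k]) x : G) = ((n ^ k : Subgroup.normalizer (P : Set G)) : G) * x * ((n ^ k : Subgroup.normalizer (P : Set G)) : G)⁻¹ := by
        intro k
        induction k with
        | zero => simp
        | succ k ih =>
          intro x
          rw [Function.iterate_succ_apply']
          change (n : G) * ((α^[k]) x : G) * (n : G)⁻¹ = _
          rw [ih, pow_succ']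
          simp [mul_assoc]
      have hα := aut_eq_self_of_fix_involutions (A := (P : Subgroup G)) (m := m)
        (fun x => Subtype.ext (pow_two_pow_eq_one P hm e x.2)) α
        (centralizer_relIndex_odd P hm e)
        (fun x => Subtype.ext (by
          rw [hit]
          rw [Subgroup.mem_subgroupOf, Subgroup.mem_centralizer_iff] at hpow
          rw [← hpow (x : G) x.2, mul_inv_cancel_right]))
        (fun x hx => Subtype.ext (hfix x x.2 (congrArg Subtype.val hx)))
      rw [Subgroup.mem_centralizer_iff]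
      intro y hy
      have := congrArg Subtype.val (hα ⟨y, hy⟩)
      change (n : G) * y * (n : G)⁻¹ = y at this
      exact (mul_inv_eq_iff_eq_mul.mp this).symm
    · intro h1
      refine Equiv.ext fun z => Subtype.ext ?_
      rw [hφapp, Equiv.Perm.one_apply]
      rw [← Subgroup.mem_centralizer_iff.mp h1 z.1 z.2.1, mul_inv_cancel_right]
  have hker : φ.ker = (Subgroup.centralizer (P : Set G)).subgroupOf
      (Subgroup.normalizer (P : Set G)) := by
    ext n; rw [MonoidHom.mem_ker, Subgroup.mem_subgroupOf, hC]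
  have hodd := centralizer_relIndex_odd P hm e
  rw [Subgroup.relIndex, ← hker, Subgroup.index_ker] at hodd
  have hd : Nat.card φ.range ∣ Nat.factorial (Nat.card (InvSet P)) := by
    haveI := Fintype.ofFinite (InvSet P)
    have hp : Nat.card (Equiv.Perm (InvSet P)) = Nat.factorial (Nat.card (InvSet P)) := by
      rw [Nat.card_eq_fintype_card, Fintype.card_perm, Nat.card_eq_fintype_card]
    rw [← hp]; exact Subgroup.card_subgroup_dvd_card _
  have hd6 : Nat.card φ.range ∣ 6 :=
    hd.trans (Nat.factorial_dvd_factorial (card_invSet_le P hm e) : _ ∣ Nat.factorial 3)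
  have h3 : Nat.card φ.range ∣ 3 := by
    have : Nat.Coprime (Nat.card φ.range) 2 := Nat.coprime_two_right.mpr hodd
    exact this.dvd_of_dvd_mul_left (show Nat.card φ.range ∣ 2 * 3 from hd6)
  refine ⟨by rwa [Subgroup.relIndex, ← hker, Subgroup.index_ker], ?_⟩
  intro n hn hnC z hz
  set σ := φ ⟨n, hn⟩ with hσ
  have hσ3 : σ ^ 3 = 1 := by
    have h : (⟨σ, ⟨_, rfl⟩⟩ : φ.range) ^ 3 = 1 := by
      obtain ⟨c, hc⟩ := h3
      rw [hc, pow_mul, pow_card_eq_one', one_pow]
    exact congrArg Subtype.val h
  have hne : σ ≠ 1 := fun h => hnC ((hC _).mp h)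
  haveI := Fintype.ofFinite (InvSet P)
  have hfix : σ z = z := Subtype.ext hz
  -- a permutation of order three of at most three points fixes none
  have hsup : z ∉ σ.support := by simp [hfix]
  have hcard : σ.support.card < 3 :=
    lt_of_lt_of_le (Finset.card_lt_univ_of_notMem hsup)
      (by rw [← Nat.card_eq_fintype_card]; exact card_invSet_le P hm e)
  have h2 : σ.support.card ≠ 1 := Equiv.Perm.card_support_ne_one σ
  have h0 : σ.support.card ≠ 0 := by simpa [Equiv.Perm.card_support_eq_zero] using hne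
  have hswap : σ.IsSwap := Equiv.Perm.card_support_eq_two.mp (by omega)
  obtain ⟨a, b, hab, hs⟩ := hswap
  have h2' : σ ^ 2 = 1 := by rw [hs, pow_two, Equiv.swap_mul_self]
  exact hne (by rwa [show (3 : ℕ) = 2 + 1 from rfl, pow_add, h2', one_mul, pow_one] at hσ3)

end Cfsg.Agent.Brauer
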